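import Cfsg.Agent.H691.L34.Def

/-!
# S5917, row M5: existence of a submodule of type 9 (helper592)
-/

set_option autoImplicit false
set_option linter.unusedSectionVars false

namespace Cfsg.Agent.H592.L34

open Matrix Cfsg.Agent.H691.L34 Module

/-! ### elements of order 3, 5, 7 -/

section elts

variable {F : Type} [Field F] [Fintype F]

theorem card_sl (hF : Fintype.card F = 4) : Nat.card (G3 F) = 60480 := by
  classical
  have h1 : Nat.card (GL (Fin 3) F) = 181440 := by
    rw [Matrix.card_GL_field]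
    simp [Fin.prod_univ_three, hF]
  let φ : GL (Fin 3) F →* Fˣ := Matrix.GeneralLinearGroup.det
  have h2 : Nat.card φ.range = 3 := by
    rw [MonoidHom.range_eq_top.2, Subgroup.card_top, Nat.card_units, Nat.card_eq_fintype_card, hF]
    intro c
    refine ⟨Matrix.GeneralLinearGroup.mkOfDetNeZero (Matrix.diagonal ![(c : F), 1, 1]) ?_, ?_⟩
    · rw [Matrix.det_diagonal, Fin.prod_univ_three]
      simp
    · apply Units.ext
      show (Matrix.diagonal ![(c : F), 1, 1]).det = c
      rw [Matrix.det_diagonal, Fin.prod_univ_three]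
      simp
  have h3 : Nat.card (G3 F) = Nat.card φ.ker := by
    let e : G3 F → φ.ker := fun x => ⟨((x : SpecialLinearGroup (Fin 3) F) : GL (Fin 3) F), by
      rw [MonoidHom.mem_ker]
      apply Units.ext
      show ((x : Matrix (Fin 3) (Fin 3) F)).det = 1
      exact x.2⟩
    have he : Function.Bijective e := by
      constructor
      · intro x y hxy
        apply Subtype.ext
        exact congrArg (fun z : φ.ker => ((z : GL (Fin 3) F) : Matrix (Fin 3) (Fin 3) F)) hxy
      · intro y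
        refine ⟨⟨((y : GL (Fin 3) F) : Matrix (Fin 3) (Fin 3) F), ?_⟩, ?_⟩
        · exact congrArg Units.val (MonoidHom.mem_ker.1 y.2)
        · apply Subtype.ext
          apply Units.ext
          rfl
    exact Nat.card_congr (Equiv.ofBijective e he)
  have h4 : Nat.card (GL (Fin 3) F) = Nat.card φ.range * Nat.card φ.ker := by
    rw [Subgroup.card_eq_card_quotient_mul_card_subgroup φ.ker]
    congr 1
    exact Nat.card_congr (QuotientGroup.quotientKerEquivRange φ).toEquiv
  rw [h1, h2, ← h3] at h4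
  omega

theorem exists_order (hF : Fintype.card F = 4) {p : ℕ} (hp : p.Prime) (h : p ∣ 60480) : ∃ g : G3 F, orderOf g = p := by
  have := Fact.mk hp
  apply exists_prime_orderOf_dvd_card'
  rwa [card_sl hF]

/-- a noncentral element of order three -/
theorem exists_three (hF : Fintype.card F = 4) : ∃ g : G3 F, orderOf g = 3 ∧ g ∉ Subgroup.center (G3 F) := by
  classical
  have : Fact (Nat.Prime 3) := ⟨Nat.prime_three⟩
  obtain ⟨c, hc⟩ : ∃ c : Fˣ, orderOf c = 3 := by
    apply exists_prime_orderOf_dvd_card'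
    rw [Nat.card_units, Nat.card_eq_fintype_card, hF]
  have hc3 : (c : F) * c * c = 1 := by
    have h1 : c ^ 3 = 1 := by rw [← hc]; exact pow_orderOf_eq_one c
    have h2 := congrArg Units.val h1
    rw [Units.val_pow_eq_pow_val, Units.val_one] at h2
    rw [← h2]
    ring
  have hc1 : (c : F) ≠ 1 := by
    intro h
    have h1 : c = 1 := Units.ext h
    rw [h1, orderOf_one] at hc
    omega
  let D : Matrix (Fin 3) (Fin 3) F := Matrix.diagonal ![(c : F), (c : F) * c, 1]
  have hD : D.det = 1 := by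
    rw [Matrix.det_diagonal, Fin.prod_univ_three]
    simp only [Matrix.cons_val_zero, Matrix.cons_val_one, Matrix.cons_val]
    rw [mul_one, ← mul_assoc]
    exact hc3
  have hT : (!![1, 1, 0; 0, 1, 0; 0, 0, 1] : Matrix (Fin 3) (Fin 3) F).det = 1 := by
    simp [Matrix.det_fin_three]
  refine ⟨⟨D, hD⟩, orderOf_eq_prime ?_ ?_, ?_⟩
  · apply Subtype.ext
    show D ^ 3 = 1
    rw [Matrix.diagonal_pow, ← Matrix.diagonal_one]
    congr 1
    funext i
    fin_cases i
    · show (c : F) ^ 3 = 1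
      rw [← hc3]; ring
    · show ((c : F) * c) ^ 3 = 1
      have : ((c : F) * c) ^ 3 = ((c : F) * c * c) ^ 2 := by ring
      rw [this, hc3, one_pow]
    · show (1 : F) ^ 3 = 1
      exact one_pow 3
  · intro h
    have h1 := congrArg (fun z : G3 F => z.1 0 0) h
    have h2 : (c : F) = 1 := by simpa [D] using h1
    exact hc1 h2
  · intro h
    have h1 := Subgroup.mem_center_iff.1 h ⟨_, hT⟩
    have h2 := congrArg (fun z : G3 F => z.1 0 1) h1
    have h3 : (c : F) * c = c := by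
      have h4 : ((!![1, 1, 0; 0, 1, 0; 0, 0, 1] : Matrix (Fin 3) (Fin 3) F) * D) 0 1 =
        (D * (!![1, 1, 0; 0, 1, 0; 0, 0, 1] : Matrix (Fin 3) (Fin 3) F)) 0 1 := h2
      rw [Matrix.mul_diagonal, Matrix.diagonal_mul] at h4
      simpa using h4
    exact hc1 (mul_right_cancel₀ c.ne_zero (by rw [h3, one_mul]))

end elts

section main

variable {F : Type} [Field F] [Fintype F] {V : Type} [AddCommGroup V] [Module (ZMod 2) V] [Module.Finite (ZMod 2) V]
  {ρ : Representation (ZMod 2) (G3 F) V}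

theorem fx_bot (g : G3 F) : finrank (ZMod 2) (fx ρ g (⊥ : Submodule (ZMod 2) V)) = 0 := by
  rw [fx, bot_inf_eq, finrank_bot]

theorem inv_bot : Inv ρ (⊥ : Submodule (ZMod 2) V) := by
  intro g w hw
  rw [Submodule.mem_bot] at hw ⊢
  rw [hw, map_zero]

theorem inv_top : Inv ρ (⊤ : Submodule (ZMod 2) V) := fun _ _ _ => Submodule.mem_top

theorem inv_inf {W X : Submodule (ZMod 2) V} (hW : Inv ρ W) (hX : Inv ρ X) : Inv ρ (W ⊓ X) :=
  fun g w hw => ⟨hW g w hw.1, hX g w hw.2⟩

/-- every nonzero invariant subspace contains a simple one -/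
theorem exists_simp {X : Submodule (ZMod 2) V} (hX : Inv ρ X) (h : X ≠ ⊥) : ∃ W, Simp ρ W ∧ W ≤ X := by
  classical
  suffices H : ∀ n : ℕ, ∀ X : Submodule (ZMod 2) V, finrank (ZMod 2) X = n → Inv ρ X → X ≠ ⊥ → ∃ W, Simp ρ W ∧ W ≤ X from
    H _ X rfl hX h
  intro n
  induction n using Nat.strong_induction_on with
  | _ n ih =>
    intro X hn hX h
    by_cases hs : Simp ρ X
    · exact ⟨X, hs, le_rfl⟩
    · have h1 : ∃ Y : Submodule (ZMod 2) V, Inv ρ Y ∧ Y ≤ X ∧ Y ≠ ⊥ ∧ Y ≠ X := by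
        by_contra hcon
        apply hs
        refine ⟨hX, h, fun Y hY hYX => ?_⟩
        by_contra h2
        push Not at h2
        exact hcon ⟨Y, hY, hYX, h2.1, h2.2⟩
      obtain ⟨Y, hY, hYX, hY0, hYne⟩ := h1
      have h2 : finrank (ZMod 2) Y < n := by
        rw [← hn]
        exact Submodule.finrank_lt_finrank_of_lt (lt_of_le_of_ne hYX hYne)
      obtain ⟨W, hW, hWY⟩ := ih _ h2 Y rfl hY hY0
      exact ⟨W, hW, hWY.trans hYX⟩

/-- the orthogonal space of an invariant subspace -/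
theorem inv_orth {B : LinearMap.BilinForm (ZMod 2) V} (hi : ∀ g x y, B (ρ g x) (ρ g y) = B x y)
    {W : Submodule (ZMod 2) V} (hW : Inv ρ W) : Inv ρ (B.orthogonal W) := by
  intro g x hx
  rw [LinearMap.BilinForm.mem_orthogonal_iff] at hx ⊢
  intro w hw
  have h1 : ρ g⁻¹ w ∈ W := hW _ _ hw
  have h2 := hx _ h1
  have h3 : ρ g (ρ g⁻¹ w) = w := by
    rw [← Module.End.mul_apply, ← map_mul, mul_inv_cancel, map_one, Module.End.one_apply]
  rw [← h3, hi]
  exact h2

theorem num {a1 b1 c1 f1 a2 b2 c2 f2 w v3 v5 v7 n5 n7 : ℕ} (hn5 : n5 = 68 ∨ n5 = 48) (hn7 : n7 = 80 ∨ n7 = 38)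
    (hw : w + 16 = 248) (p0 : w = 16 + (a1 + 16 * b1 + 9 * c1 + 64 * f1)) (p3 : v3 = 4 + (a1 + 4 * b1 + 3 * c1 + 22 * f1))
    (p5 : v5 = 4 + (a1 + 4 * b1 + c1 + 12 * f1)) (p7 : v7 = 4 + (a1 + 4 * b1 + 10 * f1))
    (q0 : 248 = w + (a2 + 16 * b2 + 9 * c2 + 64 * f2)) (q3 : 86 = v3 + (a2 + 4 * b2 + 3 * c2 + 22 * f2))
    (q5 : n5 = v5 + (a2 + 4 * b2 + c2 + 12 * f2)) (q7 : n7 = v7 + (a2 + 4 * b2 + 10 * f2)) : False := by
  have e0 : 232 = (a1 + a2) + 16 * (b1 + b2) + 9 * (c1 + c2) + 64 * (f1 + f2) := by omega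
  have e3 : 82 = (a1 + a2) + 4 * (b1 + b2) + 3 * (c1 + c2) + 22 * (f1 + f2) := by omega
  have e5 : n5 = 4 + (a1 + a2) + 4 * (b1 + b2) + (c1 + c2) + 12 * (f1 + f2) := by omega
  have e7 : n7 = 4 + (a1 + a2) + 4 * (b1 + b2) + 10 * (f1 + f2) := by omega
  have e8 : 16 = a2 + 16 * b2 + 9 * c2 + 64 * f2 := by omega
  have e9 : b1 + b2 = 0 ∧ a1 + a2 = 4 := by
    generalize a1 + a2 = a at e0 e3 e5 e7 ⊢
    generalize b1 + b2 = b at e0 e3 e5 e7 ⊢
    generalize c1 + c2 = c at e0 e3 e5 e7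
    generalize f1 + f2 = f at e0 e3 e5 e7
    clear p0 p3 p5 p7 q0 q3 q5 q7 e8 hw
    rcases hn5 with rfl | rfl <;> rcases hn7 with rfl | rfl <;> omega
  obtain ⟨e9, e10⟩ := e9
  have hb : b2 = 0 := by omega
  have ha : a2 ≤ 4 := by omega
  subst hb
  clear e0 e3 e5 e7 p0 p3 p5 p7 q0 q3 q5 q7 e9 e10
  have hf : f2 = 0 := by omega
  subst hf
  have hc : c2 = 0 ∨ c2 = 1 := by omega
  rcases hc with rfl | rfl <;> omega

/-- **M5**, from `simp_cases`, `PL`, `st_compl` -/
theorem exists_nine_of (hF : Fintype.card F = 4)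
    (hsc : ∀ W : Submodule (ZMod 2) V, Simp ρ W →
      (∀ v ∈ W, ∀ g, ρ g v = v) ∨ IsNine ρ false W ∨ IsNine ρ true W ∨ Is16 ρ W ∨ Is64 ρ W)
    (hPL : ∀ A B : Submodule (ZMod 2) V, Inv ρ A → Inv ρ B → A ≤ B →
      ∃ a b c d : ℕ, Module.finrank (ZMod 2) B = Module.finrank (ZMod 2) A + (a + 16 * b + 9 * c + 64 * d) ∧
      (∀ g : G3 F, orderOf g = 3 → g ∉ Subgroup.center (G3 F) → Module.finrank (ZMod 2) (fx ρ g B) =
        Module.finrank (ZMod 2) (fx ρ g A) + (a + 4 * b + 3 * c + 22 * d)) ∧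
      (∀ g : G3 F, orderOf g = 5 → Module.finrank (ZMod 2) (fx ρ g B) =
        Module.finrank (ZMod 2) (fx ρ g A) + (a + 4 * b + c + 12 * d)) ∧
      ∀ g : G3 F, orderOf g = 7 → Module.finrank (ZMod 2) (fx ρ g B) =
        Module.finrank (ZMod 2) (fx ρ g A) + (a + 4 * b + 10 * d))
    (hst : ∀ W X : Submodule (ZMod 2) V, Simp ρ W → Is64 ρ W → Inv ρ X → W ≤ X →
      ∃ C : Submodule (ZMod 2) V, Inv ρ C ∧ W ⊓ C = ⊥ ∧ W ⊔ C = X)
    {n5 n7 : ℕ} (hn5 : n5 = 68 ∨ n5 = 48) (hn7 : n7 = 80 ∨ n7 = 38)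
    (hd : Dims ρ (⊤ : Submodule (ZMod 2) V) 248 86 n5 n7) (B : LinearMap.BilinForm (ZMod 2) V) (hB : B.Nondegenerate)
    (hs : ∀ x y, B x y = B y x) (hi : ∀ g x y, B (ρ g x) (ρ g y) = B x y) (h0 : fixAll ρ = ⊥) :
    ∃ b W, IsNine ρ b W := by
  classical
  by_contra hno
  push Not at hno
  obtain ⟨g3, hg3, hg3c⟩ := exists_three (F := F) hF
  obtain ⟨g5, hg5⟩ := exists_order (F := F) hF (p := 5) (by norm_num) (by norm_num)
  obtain ⟨g7, hg7⟩ := exists_order (F := F) hF (p := 7) (by norm_num) (by norm_num)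
  obtain ⟨d0, d3, d5, d7⟩ := hd
  have d3 := d3 g3 hg3 hg3c
  have d5 := d5 g5 hg5
  have d7 := d7 g7 hg7
  have hrefl : B.IsRefl := fun x y h => by rw [hs]; exact h
  -- the simple submodules have type 16 or 64
  have hsimp : ∀ W : Submodule (ZMod 2) V, Simp ρ W → Is16 ρ W ∨ Is64 ρ W := by
    intro W hW
    rcases hsc W hW with h | h | h | h | h
    · exfalso
      apply hW.2.1
      rw [eq_bot_iff]
      intro v hv
      rw [← h0]
      exact fun g => h v hv g
    · exact absurd h (hno _ _)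
    · exact absurd h (hno _ _)
    · exact Or.inl h
    · exact Or.inr h
  -- the submodules of type 16 are nondegenerate
  have h16 : ∀ W : Submodule (ZMod 2) V, Simp ρ W → Is16 ρ W → W ⊓ B.orthogonal W = ⊥ := by
    intro W hW hW16
    have ho := inv_orth hi hW.1
    rcases hW.2.2 _ (inv_inf hW.1 ho) inf_le_left with h | h
    · exact h
    · exfalso
      have hle : W ≤ B.orthogonal W := inf_eq_left.1 h
      obtain ⟨e0, e3, e5, e7⟩ := hW16
      have e3 := e3 g3 hg3 hg3c
      have e5 := e5 g5 hg5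
      have e7 := e7 g7 hg7
      obtain ⟨a1, b1, c1, f1, p0, p3, p5, p7⟩ := hPL _ _ hW.1 ho hle
      obtain ⟨a2, b2, c2, f2, q0, q3, q5, q7⟩ := hPL _ _ ho inv_top le_top
      have p3 := p3 g3 hg3 hg3c
      have p5 := p5 g5 hg5
      have p7 := p7 g7 hg7
      have q3 := q3 g3 hg3 hg3c
      have q5 := q5 g5 hg5
      have q7 := q7 g7 hg7
      have hdim := LinearMap.BilinForm.finrank_orthogonal hB W
      have hV : finrank (ZMod 2) (⊤ : Submodule (ZMod 2) V) = finrank (ZMod 2) V := finrank_top _ _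
      have hle' := Submodule.finrank_le W
      rw [e0] at hdim p0 hle'
      rw [e3] at p3
      rw [e5] at p5
      rw [e7] at p7
      rw [d0] at q0 hV
      rw [d3] at q3
      rw [d5] at q5
      rw [d7] at q7
      rw [← hV] at hdim hle'
      exact num hn5 hn7 (by omega) p0 p3 p5 p7 q0 q3 q5 q7
  -- the dimensions are divisible by 16
  have key : ∀ n : ℕ, ∀ X : Submodule (ZMod 2) V, finrank (ZMod 2) X = n → Inv ρ X → 16 ∣ n := by
    intro n
    induction n using Nat.strong_induction_on with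
    | _ n ih =>
      intro X hn hX
      by_cases hX0 : X = ⊥
      · rw [hX0, finrank_bot] at hn
        rw [← hn]
        exact dvd_zero _
      · obtain ⟨W, hW, hWX⟩ := exists_simp hX hX0
        have h1 : 16 ∣ finrank (ZMod 2) W ∧ 0 < finrank (ZMod 2) W ∧
            ∃ C : Submodule (ZMod 2) V, Inv ρ C ∧ W ⊓ C = ⊥ ∧ W ⊔ C = X := by
          rcases hsimp W hW with h | h
          · refine ⟨by rw [h.1], by rw [h.1]; norm_num, X ⊓ B.orthogonal W, inv_inf hX (inv_orth hi hW.1), ?_, ?_⟩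
            · have h5 : W ⊓ (X ⊓ B.orthogonal W) ≤ W ⊓ B.orthogonal W := inf_le_inf_left W inf_le_right
              rw [h16 W hW h] at h5
              exact eq_bot_iff.2 h5
            · have h2 : W ⊔ B.orthogonal W = ⊤ := by
                apply Submodule.eq_top_of_finrank_eq
                have h3 := Submodule.finrank_sup_add_finrank_inf_eq W (B.orthogonal W)
                rw [h16 W hW h, finrank_bot] at h3
                have hdim := LinearMap.BilinForm.finrank_orthogonal hB W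
                have hle' := Submodule.finrank_le W
                omega
              have h5 := sup_inf_assoc_of_le (B.orthogonal W) hWX
              rw [h2, top_inf_eq] at h5
              rw [inf_comm X]
              exact h5.symm
          · exact ⟨by rw [h.1.1]; norm_num, by rw [h.1.1]; norm_num, hst W X hW h hX hWX⟩
        obtain ⟨h2, h3, C, hC, hC1, hC2⟩ := h1
        have h4 := Submodule.finrank_sup_add_finrank_inf_eq W C
        rw [hC1, hC2, finrank_bot, hn, add_zero] at h4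
        rw [h4]
        exact dvd_add h2 (ih _ (by omega) C rfl hC)
  have := key _ ⊤ rfl inv_top
  rw [d0] at this
  norm_num at this

end main

end Cfsg.Agent.H592.L34
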