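import Cfsg.Agent.H592.L34.ExistsNine
import Cfsg.Agent.H118.L34.PL
import Cfsg.Agent.H118.L34.St

/-!
# S5917, row M5: existence of a submodule of type 9, from `SimpCases` and `NineDims` (helper592)
-/

set_option autoImplicit false

namespace Cfsg.Agent.H592.L34

open Matrix Cfsg.Agent.H691.L34 Module Cfsg.Agent.H118.L34

variable {F : Type} [Field F] [Fintype F] {V : Type} [AddCommGroup V] [Module (ZMod 2) V] [Module.Finite (ZMod 2) V]
  {ρ : Representation (ZMod 2) (G3 F) V}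

/-- **M5** -/
theorem exists_nine (hsc : SimpCases F) (hnd : NineDims F) (hF : Fintype.card F = 4) (hc : CT ρ) {n5 n7 : ℕ}
    (hn5 : n5 = 68 ∨ n5 = 48) (hn7 : n7 = 80 ∨ n7 = 38)
    (hd : Dims ρ (⊤ : Submodule (ZMod 2) V) 248 86 n5 n7) (B : LinearMap.BilinForm (ZMod 2) V) (hB : B.Nondegenerate)
    (hs : ∀ x y, B x y = B y x) (hi : ∀ g x y, B (ρ g x) (ρ g y) = B x y) (h0 : fixAll ρ = ⊥) :
    ∃ b W, IsNine ρ b W :=
  exists_nine_of hF (fun _ hW => hsc hc hW) (fun _ _ hA hB h => PL_of hsc hnd hc hA hB h)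
    (fun _ _ hW h hX hWX => st_compl hF hW h hX hWX) hn5 hn7 hd B hB hs hi h0

end Cfsg.Agent.H592.L34
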