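import Cfsg.Agent.H592.L34.NineInOf
import Cfsg.Agent.H482.LF.SimpB
import Cfsg.Agent.H118.L34.St

/-!
# S5917, D2 (P2): a submodule of type 9 inside an invariant subspace; `exists_nine` without hypotheses (helper592)
-/

set_option autoImplicit false
set_option linter.unusedSectionVars false

namespace Cfsg.Agent.H592.L34

open Matrix Cfsg.Agent.H691.L34 Module

section main

variable {F : Type} [Field F] [Fintype F] {V : Type} [AddCommGroup V] [Module (ZMod 2) V] [Module.Finite (ZMod 2) V]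
  {ρ : Representation (ZMod 2) (G3 F) V}

/-- **P2** -/
theorem exists_nine_in (hF : Fintype.card F = 4) (hc : CT ρ) {n5 n7 : ℕ} (hn5 : n5 = 68 ∨ n5 = 48)
    (hn7 : n7 = 80 ∨ n7 = 38)
    (hd : Dims ρ (⊤ : Submodule (ZMod 2) V) 248 86 n5 n7) (B : LinearMap.BilinForm (ZMod 2) V) (hB : B.Nondegenerate)
    (hs : ∀ x y, B x y = B y x) (hi : ∀ g x y, B (ρ g x) (ρ g y) = B x y) (h0 : fixAll ρ = ⊥)
    {X0 : Submodule (ZMod 2) V} (hX0 : Inv ρ X0) (hX016 : ¬ 16 ∣ finrank (ZMod 2) X0) : ∃ b W, IsNine ρ b W ∧ W ≤ X0 :=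
  exists_nine_in_of hF (fun _ hW => Cfsg.Agent.H482.LF.simp_cases hF hc hW)
    (fun _ _ hA hB h => Cfsg.Agent.H482.LF.PL hF hc hA hB h)
    (fun _ _ hW h hX hWX => Cfsg.Agent.H118.L34.st_compl hF hW h hX hWX) hn5 hn7 hd B hB hs hi h0 hX0 hX016

/-- **M5** -/
theorem exists_nine' (hF : Fintype.card F = 4) (hc : CT ρ) {n5 n7 : ℕ} (hn5 : n5 = 68 ∨ n5 = 48)
    (hn7 : n7 = 80 ∨ n7 = 38)
    (hd : Dims ρ (⊤ : Submodule (ZMod 2) V) 248 86 n5 n7) (B : LinearMap.BilinForm (ZMod 2) V) (hB : B.Nondegenerate)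
    (hs : ∀ x y, B x y = B y x) (hi : ∀ g x y, B (ρ g x) (ρ g y) = B x y) (h0 : fixAll ρ = ⊥) :
    ∃ b W, IsNine ρ b W :=
  exists_nine_of hF (fun _ hW => Cfsg.Agent.H482.LF.simp_cases hF hc hW)
    (fun _ _ hA hB h => Cfsg.Agent.H482.LF.PL hF hc hA hB h)
    (fun _ _ hW h hX hWX => Cfsg.Agent.H118.L34.st_compl hF hW h hX hWX) hn5 hn7 hd B hB hs hi h0

end main

end Cfsg.Agent.H592.L34
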